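import Mathlib
import Cfsg.Prelude.Def_ConjugacyFunctors
import Cfsg.Prelude.Def_Amalgam
import Cfsg.Agent.Lib.Helper33.Wc3

set_option autoImplicit false

namespace Cfsg.Agent.Lib.Helper88

open Cfsg

open scoped commutatorElement

universe u

/-- The "Of" form of a functor on groups: `W` applied to the subgroup `P`, viewed inside `G`. -/
def WOf (W : ∀ (Q : Type u) [Group Q], Subgroup Q) {G : Type u} [Group G] (P : Subgroup G) :
    Subgroup G :=
  (W ↥P).map P.subtype

section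

variable {p : ℕ} (W : ∀ (Q : Type u) [Group Q], Subgroup Q)
  (hW2 : ∀ (Q R : Type u) [Group Q] [Group R] [Finite Q], IsPGroup p Q →
    ∀ φ : Q ≃* R, (W Q).map φ.toMonoidHom = W R)

theorem WOf_le {G : Type u} [Group G] (P : Subgroup G) : WOf W P ≤ P :=
  Subgroup.map_subtype_le _

include hW2 in
theorem WOf_map_of_injective {G G' : Type u} [Group G] [Group G'] (f : G →* G')
    (hf : Function.Injective f) (P : Subgroup G) [Finite P] (hP : IsPGroup p P) :
    WOf W (P.map f) = (WOf W P).map f := by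
  have hinj : Function.Injective (f.subgroupMap P) := by
    intro x y hxy
    have h1 : f (x : G) = f (y : G) := congrArg Subtype.val hxy
    exact Subtype.ext (hf h1)
  let e : ↥P ≃* ↥(P.map f) :=
    MulEquiv.ofBijective (f.subgroupMap P) ⟨hinj, f.subgroupMap_surjective P⟩
  have h1 : (W ↥P).map e.toMonoidHom = W ↥(P.map f) := hW2 _ _ hP e
  have h2 : (P.map f).subtype.comp e.toMonoidHom = f.comp P.subtype := by
    ext x; rfl
  unfold WOf
  rw [← h1, Subgroup.map_map, h2, Subgroup.map_map]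

include hW2 in
theorem normalizer_le_normalizer_WOf {G : Type u} [Group G] (P : Subgroup G) [Finite P]
    (hP : IsPGroup p P) :
    Subgroup.normalizer (P : Set G) ≤ Subgroup.normalizer (WOf W P : Set G) := by
  have key : ∀ g ∈ Subgroup.normalizer (P : Set G), ∀ y ∈ WOf W P, g * y * g⁻¹ ∈ WOf W P := by
    intro g hg y hy
    have h1 : P.map (MulAut.conj g).toMonoidHom = P := by
      ext z
      constructor
      · rintro ⟨w, hw, rfl⟩
        exact (Subgroup.mem_normalizer_iff.mp hg w).mp hw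
      · intro hz
        refine ⟨g⁻¹ * z * g, ?_, ?_⟩
        · have h2 := (Subgroup.mem_normalizer_iff.mp (Subgroup.inv_mem _ hg) z).mp hz
          rw [inv_inv] at h2
          exact h2
        · show g * (g⁻¹ * z * g) * g⁻¹ = z
          group
    have h2 := WOf_map_of_injective W hW2 (MulAut.conj g).toMonoidHom (MulAut.conj g).injective
      P hP
    rw [h1] at h2
    rw [h2]
    exact ⟨y, hy, rfl⟩
  intro g hg
  rw [Subgroup.mem_normalizer_iff]
  intro y
  constructor
  · exact key g hg y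
  · intro hy
    have h1 := key g⁻¹ (Subgroup.inv_mem _ hg) _ hy
    have h2 : g⁻¹ * (g * y * g⁻¹) * g⁻¹⁻¹ = y := by group
    rw [h2] at h1
    exact h1

include hW2 in
theorem isConjugacyFunctor_WOf {G : Type u} [Group G] [Finite G]
    (hW1 : ∀ (Q : Type u) [Group Q] [Finite Q], IsPGroup p Q → Nontrivial Q → W Q ≠ ⊥) :
    IsConjugacyFunctor p (fun P : Subgroup G => WOf W P) := by
  intro P hP
  refine ⟨WOf_le W P, ?_, ?_⟩
  · intro hne
    have hnt : Nontrivial ↥P := (Subgroup.nontrivial_iff_ne_bot P).mpr hne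
    have h1 := hW1 ↥P hP hnt
    intro h
    apply h1
    exact (Subgroup.map_eq_bot_iff_of_injective _ P.subtype_injective).mp h
  · intro g
    exact WOf_map_of_injective W hW2 (MulAut.conj g).toMonoidHom (MulAut.conj g).injective P hP

theorem le_WOf {G : Type u} [Group G]
    (hWZ : ∀ (Q : Type u) [Group Q] [Finite Q], IsPGroup p Q → Subgroup.center Q ≤ W Q)
    (P : Subgroup G) [Finite P] (hP : IsPGroup p ↥P) :
    P ⊓ Subgroup.centralizer (P : Set G) ≤ WOf W P := by
  intro z hz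
  obtain ⟨hzP, hzc⟩ := Subgroup.mem_inf.mp hz
  refine ⟨⟨z, hzP⟩, hWZ ↥P hP ?_, rfl⟩
  rw [Subgroup.mem_center_iff]
  intro y
  apply Subtype.ext
  exact Subgroup.mem_centralizer_iff.mp hzc y y.2

include hW2 in
theorem hloc_of_hq {G : Type u} [Group G] [Finite G] [Fact p.Prime]
    (hq : ∀ (G : Type u) [Group G] [Finite G] (P : Sylow p G),
      ¬ (((W ↥(P : Subgroup G)).map (P : Subgroup G).subtype : Subgroup G)).Normal →
      ∃ g : G, g ∈ (P : Subgroup G) ∧ g ∉ Cfsg.pCore p G ∧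
        ⁅⁅Subgroup.center ↥(Cfsg.pCore p G) |>.map (Cfsg.pCore p G).subtype,
          Subgroup.zpowers g⁆, Subgroup.zpowers g⁆ = ⊥)
    (H T : Subgroup G) (hTH : T ≤ H) (hT : IsPGroup p ↥T) (hidx : ¬ p ∣ T.relIndex H)
    (hnn : ¬ H ≤ Subgroup.normalizer ((WOf W T : Subgroup G) : Set G)) :
    ∃ g : G, g ∈ T ∧ g ∉ pCoreOf p H ∧
      ⁅⁅pCoreOf p H ⊓ Subgroup.centralizer ((pCoreOf p H : Subgroup G) : Set G),
        Subgroup.zpowers g⁆, Subgroup.zpowers g⁆ = ⊥ := by
  have hTp : IsPGroup p ↥(T.subgroupOf H) := hT.comap_subtype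
  have hidx' : ¬ p ∣ (T.subgroupOf H).index := hidx
  have hnotn : ¬ (((W ↥((hTp.toSylow hidx' : Sylow p ↥H) : Subgroup ↥H)).map
      ((hTp.toSylow hidx' : Sylow p ↥H) : Subgroup ↥H).subtype : Subgroup ↥H)).Normal := by
    intro hn
    have hn' : (WOf W (T.subgroupOf H)).Normal := hn
    apply hnn
    have hF1 := WOf_map_of_injective W hW2 H.subtype H.subtype_injective (T.subgroupOf H) hTp
    rw [Subgroup.map_subgroupOf_eq_of_le hTH] at hF1
    intro h hh
    rw [hF1, Subgroup.mem_normalizer_iff]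
    intro y
    constructor
    · rintro ⟨n, hn1, rfl⟩
      exact ⟨⟨h, hh⟩ * n * ⟨h, hh⟩⁻¹, hn'.conj_mem n hn1 ⟨h, hh⟩, rfl⟩
    · rintro ⟨n, hn1, hn2⟩
      refine ⟨⟨h, hh⟩⁻¹ * n * ⟨h, hh⟩, ?_, ?_⟩
      · have h1 := hn'.conj_mem n hn1 ⟨h, hh⟩⁻¹
        rw [inv_inv] at h1
        exact h1
      · show h⁻¹ * (n : G) * h = y
        have h1 : (n : G) = h * y * h⁻¹ := hn2
        rw [h1]
        group
  obtain ⟨g, hgP, hgO, hcomm⟩ := hq ↥H (hTp.toSylow hidx') hnotn
  refine ⟨(g : G), Subgroup.mem_subgroupOf.mp hgP, ?_, ?_⟩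
  · rintro ⟨k, hk, hkg⟩
    have h1 : k = g := Subtype.ext hkg
    rw [h1] at hk
    exact hgO hk
  · have hV : pCoreOf p H ⊓ Subgroup.centralizer ((pCoreOf p H : Subgroup G) : Set G) =
        ((Subgroup.center ↥(pCore p ↥H)).map (pCore p ↥H).subtype).map H.subtype := by
      ext y
      constructor
      · intro hy
        obtain ⟨hy1, hy2⟩ := Subgroup.mem_inf.mp hy
        obtain ⟨k, hk, rfl⟩ := hy1
        refine ⟨k, ⟨⟨k, hk⟩, ?_, rfl⟩, rfl⟩
        rw [SetLike.mem_coe, Subgroup.mem_center_iff]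
        intro o
        apply Subtype.ext
        apply Subtype.ext
        exact Subgroup.mem_centralizer_iff.mp hy2 _ ⟨o, o.2, rfl⟩
      · rintro ⟨k, ⟨c, hc, rfl⟩, rfl⟩
        refine Subgroup.mem_inf.mpr ⟨⟨c, c.2, rfl⟩, ?_⟩
        rw [Subgroup.mem_centralizer_iff]
        rintro _ ⟨o, ho, rfl⟩
        have h1 := Subgroup.mem_center_iff.mp hc ⟨o, ho⟩
        have h2 := congrArg (fun z : ↥(pCore p ↥H) => ((z : ↥H) : G)) h1
        exact h2
    have hz : Subgroup.zpowers (g : G) = (Subgroup.zpowers g).map H.subtype :=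
      (MonoidHom.map_zpowers H.subtype g).symm
    rw [hV, hz, ← Subgroup.map_commutator, ← Subgroup.map_commutator, hcomm, Subgroup.map_bot]

include hW2 in
/-- Weak closure of the `p`-th powers of central elements centralized by `N(W(T))`. -/
theorem pth_power_weakly_closed {X : Type u} [Group X] [Finite X] [Fact p.Prime]
    (hW1 : ∀ (Q : Type u) [Group Q] [Finite Q], IsPGroup p Q → Nontrivial Q → W Q ≠ ⊥)
    (hWZ : ∀ (Q : Type u) [Group Q] [Finite Q], IsPGroup p Q → Subgroup.center Q ≤ W Q)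
    (hq : ∀ (G : Type u) [Group G] [Finite G] (P : Sylow p G),
      ¬ (((W ↥(P : Subgroup G)).map (P : Subgroup G).subtype : Subgroup G)).Normal →
      ∃ g : G, g ∈ (P : Subgroup G) ∧ g ∉ Cfsg.pCore p G ∧
        ⁅⁅Subgroup.center ↥(Cfsg.pCore p G) |>.map (Cfsg.pCore p G).subtype,
          Subgroup.zpowers g⁆, Subgroup.zpowers g⁆ = ⊥)
    (T : Subgroup X) (hT : IsPGroup p T) (hidx : ¬ p ∣ T.index) (x : X)
    (hx : x ∈ Subgroup.closure ((fun z : X => z ^ p) ''
      ((T ⊓ Subgroup.centralizer (T : Set X) : Subgroup X) : Set X)))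
    (hxN : x ∈ Subgroup.centralizer
      ((Subgroup.normalizer ((WOf W T : Subgroup X) : Set X) : Subgroup X) : Set X)) :
    ∀ g : X, g * x * g⁻¹ ∈ T → g * x * g⁻¹ = x := by
  have h := (Helper33.weakClosure_pth_powers (hT.toSylow hidx) (fun P => WOf W P)
    (isConjugacyFunctor_WOf W hW2 hW1) (fun P hP => le_WOf W hWZ P hP)
    (fun H T' h1 h2 h3 h4 => hloc_of_hq W hW2 hq H T' h1 h2 h3 h4) _ rfl).1
  intro g hg
  exact h x (Subgroup.mem_inf.mpr ⟨hx, hxN⟩) g hg

end

end Cfsg.Agent.Lib.Helper88
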