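import Mathlib
import Cfsg.Agent.Lib.Helper88.LocalGroup
import Cfsg.Agent.Lib.Helper88.MaxNorm
import Cfsg.Agent.Lib.Helper88.TypeFunctor

set_option autoImplicit false

namespace Cfsg.Agent.Lib.Helper88

open Cfsg Cfsg.FusionSystem

open scoped commutatorElement

universe u

section

variable {p : ℕ} (W : ∀ (Q : Type u) [Group Q], Subgroup Q)
  (hW2 : ∀ (Q R : Type u) [Group Q] [Group R] [Finite Q], IsPGroup p Q →
    ∀ φ : Q ≃* R, (W Q).map φ.toMonoidHom = W R)

include hW2 in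
/-- `W` of the image of an injective homomorphism. -/
theorem mem_WOf_range {Ω X : Type u} [Group Ω] [Group X] {T : Subgroup Ω} [Finite T]
    (hT : IsPGroup p T) (θ : T →* X) (hθ : Function.Injective θ) (y : X) :
    y ∈ WOf W θ.range ↔ ∃ t : T, (t : Ω) ∈ WOf W T ∧ θ t = y := by
  have hTtop : IsPGroup p ↥(⊤ : Subgroup T) := hT.to_subgroup ⊤
  have h1 := WOf_map_of_injective W hW2 θ hθ (⊤ : Subgroup T) hTtop
  have h3 := WOf_map_of_injective W hW2 T.subtype T.subtype_injective (⊤ : Subgroup T) hTtop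
  rw [← MonoidHom.range_eq_map] at h1
  rw [← MonoidHom.range_eq_map, Subgroup.range_subtype] at h3
  rw [h1, Subgroup.mem_map]
  constructor
  · rintro ⟨t, ht, rfl⟩
    refine ⟨t, ?_, rfl⟩
    rw [h3]
    exact ⟨t, ht, rfl⟩
  · rintro ⟨t, ht, rfl⟩
    refine ⟨t, ?_, rfl⟩
    rw [h3] at ht
    obtain ⟨t', ht', h4⟩ := ht
    have : t' = t := Subtype.ext h4
    rw [← this]
    exact ht'

include hW2 in
/-- **Glauberman's theorem for `p`-th powers, for a functor with the quadratic element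
property** (fusion systems). -/
theorem glauberman_W [Fact p.Prime]
    (hW1 : ∀ (Q : Type u) [Group Q] [Finite Q], IsPGroup p Q → Nontrivial Q → W Q ≠ ⊥)
    (hWZ : ∀ (Q : Type u) [Group Q] [Finite Q], IsPGroup p Q → Subgroup.center Q ≤ W Q)
    (hq : ∀ (G : Type u) [Group G] [Finite G] (P : Sylow p G),
      ¬ (((W ↥(P : Subgroup G)).map (P : Subgroup G).subtype : Subgroup G)).Normal →
      ∃ g : G, g ∈ (P : Subgroup G) ∧ g ∉ Cfsg.pCore p G ∧
        ⁅⁅Subgroup.center ↥(Cfsg.pCore p G) |>.map (Cfsg.pCore p G).subtype,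
          Subgroup.zpowers g⁆, Subgroup.zpowers g⁆ = ⊥)
    {Ω : Type u} [Group Ω] {S : Subgroup Ω} [Finite S] (hS : IsPGroup p S)
    (F : FusionSystem S) (hF : F.IsSaturated p)
    (N : FusionSystem (normalizerIn S ((W ↥S).map S.subtype)))
    (hN : F.IsNormalizerSystem ((W ↥S).map S.subtype) N) :
    Subgroup.closure ((fun z => z ^ p) ''
      ((S ⊓ Subgroup.centralizer (S : Set Ω) : Subgroup Ω) : Set Ω)) ⊓ N.center ≤ F.center := by
  classical
  have hfinS' : ∀ K : Subgroup Ω, K ≤ S → Finite K := fun K hK =>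
    Finite.of_injective _ (Subgroup.inclusion_injective hK)
  have hJS : (W ↥S).map S.subtype ≤ S := WOf_le W S
  have hSnJ : S ≤ Subgroup.normalizer (((W ↥S).map S.subtype : Subgroup Ω) : Set Ω) :=
    Subgroup.le_normalizer.trans (normalizer_le_normalizer_WOf W hW2 S hS)
  have hNJ : normalizerIn S ((W ↥S).map S.subtype) = S :=
    le_antisymm inf_le_left (le_inf le_rfl hSnJ)
  have hfinNJ : Finite (normalizerIn S ((W ↥S).map S.subtype)) := hfinS' _ inf_le_left
  have hJN : (W ↥S).map S.subtype ≤ normalizerIn S ((W ↥S).map S.subtype) := by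
    rw [hNJ]; exact hJS
  have hNmor := Helper84.mor_normalizerSystem_iff F hJS N hN
  have hcenS : ∀ x ∈ N.center, x ∈ S := fun x hx => by
    have := center_le_S N hx
    rw [hNJ] at this
    exact this
  have hcen : ∀ x ∈ N.center, ∀ g ∈ S, g * x * g⁻¹ = x := fun x hx g hg =>
    central_of_center hx g (by rw [hNJ]; exact hg)
  intro x hx
  obtain ⟨hxV0, hxN⟩ := Subgroup.mem_inf.mp hx
  have hxS : x ∈ S := hcenS x hxN
  have hzcen := hcen x hxN
  by_contra hxF
  have hmove : ¬ ∀ (P : Subgroup Ω) (f : Ω → Ω), Mor F P f → x ∈ P → f x = x :=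
    fun hfix => hxF (mem_center_of_fix hS hF hxS hfix)
  obtain ⟨P₀, hfa, hrec, hxP₀, ⟨f₀, hf₀, hf₀P, hf₀x⟩, hmax⟩ :=
    exists_max_moving hS hF hxS hzcen hmove
  have hP₀S : P₀ ≤ S := hrec.1
  have hfinP₀ : Finite P₀ := hfinS' _ hP₀S
  have hP₀T : P₀ ≤ normalizerIn S P₀ := Helper84.le_normalizerIn hP₀S
  obtain ⟨X, hXg, hXf, θ, hθinj, hidx, -, haut, hfus, -⟩ :=
    local_group p hS F hF hfa hrec PUnit.{1}
  have hTS : normalizerIn S P₀ ≤ S := inf_le_left
  have hfinT : Finite (normalizerIn S P₀) := hfinS' _ hTS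
  have hTp : IsPGroup p ↥(normalizerIn S P₀) := hS.to_le hTS
  have hJ₁T : WOf W (normalizerIn S P₀) ≤ normalizerIn S P₀ := WOf_le W _
  have hxT : x ∈ normalizerIn S P₀ := hP₀T hxP₀
  have hcomm : ∀ z : Ω, (∀ g ∈ S, g * z * g⁻¹ = z) → ∀ t ∈ S, t * z = z * t := by
    intro z hz t ht
    have h1 := hz t ht
    calc t * z = (t * z * t⁻¹) * t := by group
      _ = z * t := by rw [h1]
  have hxJ₁ : x ∈ WOf W (normalizerIn S P₀) := by
    apply le_WOf W hWZ _ hTp
    refine Subgroup.mem_inf.mpr ⟨hxT, ?_⟩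
    rw [Subgroup.mem_centralizer_iff]
    intro t ht
    exact hcomm x hzcen t (hTS ht)
  -- automorphisms of `W(T)` fix `x`
  have hK : ∀ f, Mor F (WOf W (normalizerIn S P₀)) f →
      (∀ u ∈ WOf W (normalizerIn S P₀), f u ∈ WOf W (normalizerIn S P₀)) → f x = x := by
    intro f hf hfJ
    by_contra hne
    have h1 : ¬ Nat.card (normalizerIn S P₀) <
        Nat.card (normalizerIn S (WOf W (normalizerIn S P₀))) :=
      fun hlt => hne (hmax _ f hf hfJ hxJ₁ hlt)
    have hTle : normalizerIn S P₀ ≤ normalizerIn S (WOf W (normalizerIn S P₀)) :=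
      le_inf hTS (Subgroup.le_normalizer.trans (normalizer_le_normalizer_WOf W hW2 _ hTp))
    have hfinNJ₁ : Finite (normalizerIn S (WOf W (normalizerIn S P₀))) :=
      hfinS' _ inf_le_left
    have h2 : normalizerIn S P₀ = normalizerIn S (WOf W (normalizerIn S P₀)) :=
      Subgroup.eq_of_le_of_card_ge hTle (not_lt.mp h1)
    have hTtop : normalizerIn S P₀ = S := by
      by_contra hTne
      have hlt : normalizerIn S P₀ < S := lt_of_le_of_ne hTS hTne
      have h4 := normalizer_grow hS le_rfl hlt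
      have h5 : S ⊓ Subgroup.normalizer ((normalizerIn S P₀ : Subgroup Ω) : Set Ω) ≤
          normalizerIn S (WOf W (normalizerIn S P₀)) :=
        inf_le_inf_left S (normalizer_le_normalizer_WOf W hW2 _ hTp)
      rw [← h2] at h5
      exact lt_irrefl _ (lt_of_lt_of_le h4 h5)
    rw [hTtop] at hf hfJ hxJ₁
    have hfN : Mor N ((W ↥S).map S.subtype) f := by
      rw [hNmor]
      refine ⟨hf, hJN, fun u hu => hJN (hfJ u hu), f, ?_, fun _ _ => rfl, hfJ⟩
      rw [sup_idem]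
      exact hf
    exact hne (center_fix hxN _ f hfN hxJ₁)
  have hθp : IsPGroup p θ.range :=
    hTp.of_surjective θ.rangeRestrict θ.rangeRestrict_surjective
  -- `θ x` is a `p`-th power of a central element of the Sylow subgroup
  have hxcl : θ ⟨x, hxT⟩ ∈ Subgroup.closure ((fun z : X => z ^ p) ''
      ((θ.range ⊓ Subgroup.centralizer (θ.range : Set X) : Subgroup X) : Set X)) := by
    have hZab : ∀ a ∈ S ⊓ Subgroup.centralizer (S : Set Ω),
        ∀ b ∈ S ⊓ Subgroup.centralizer (S : Set Ω), a * b = b * a := by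
      intro a ha b hb
      exact (Subgroup.mem_centralizer_iff.1 (Subgroup.mem_inf.1 ha).2 b
        (Subgroup.mem_inf.1 hb).1).symm
    obtain ⟨z, hz, hzx⟩ := Helper33.exists_root_of_mem_closure hZab p hxV0
    obtain ⟨hzS, hzc⟩ := Subgroup.mem_inf.mp hz
    have hzcomm : ∀ t ∈ S, t * z = z * t := fun t ht =>
      Subgroup.mem_centralizer_iff.mp hzc t ht
    have hzT : z ∈ normalizerIn S P₀ := by
      refine Subgroup.mem_inf.mpr ⟨hzS, mem_normalizer_fin ?_⟩
      intro q hq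
      have h1 := hzcomm q (hP₀S hq)
      have h2 : z * q * z⁻¹ = q := by
        calc z * q * z⁻¹ = (q * z) * z⁻¹ := by rw [h1]
          _ = q := by group
      rw [h2]
      exact hq
    apply Subgroup.subset_closure
    refine ⟨θ ⟨z, hzT⟩, Subgroup.mem_inf.mpr ⟨⟨_, rfl⟩, ?_⟩, ?_⟩
    · rw [Subgroup.mem_centralizer_iff]
      rintro _ ⟨t, rfl⟩
      rw [← map_mul, ← map_mul]
      congr 1
      apply Subtype.ext
      exact hzcomm t (hTS t.2)
    · show (θ ⟨z, hzT⟩) ^ p = θ ⟨x, hxT⟩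
      rw [← map_pow]
      congr 1
      apply Subtype.ext
      show z ^ p = x
      exact hzx
  have hxN' : θ ⟨x, hxT⟩ ∈ Subgroup.centralizer
      ((Subgroup.normalizer ((WOf W θ.range : Subgroup X) : Set X) : Subgroup X) : Set X) := by
    rw [Subgroup.mem_centralizer_iff]
    intro m hm
    have hmJ : ∀ u : ↥(WOf W (normalizerIn S P₀)),
        m * θ ⟨u, hJ₁T u.2⟩ * m⁻¹ ∈ WOf W θ.range := by
      intro u
      apply (Subgroup.mem_normalizer_iff.mp hm _).mp
      exact (mem_WOf_range W hW2 hTp θ hθinj _).mpr ⟨⟨u, hJ₁T u.2⟩, u.2, rfl⟩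
    obtain ⟨f, hf, hfθ⟩ := hfus m _ hJ₁T (fun u => WOf_le W _ (hmJ u))
    have hfJ : ∀ u ∈ WOf W (normalizerIn S P₀), f u ∈ WOf W (normalizerIn S P₀) := by
      intro u hu
      obtain ⟨hfu, h1⟩ := hfθ u hu
      have h2 := hmJ ⟨u, hu⟩
      rw [← h1] at h2
      obtain ⟨t, ht, h3⟩ := (mem_WOf_range W hW2 hTp θ hθinj _).mp h2
      have h4 : t = ⟨f u, hfu⟩ := hθinj h3
      rw [h4] at ht
      exact ht
    have hfx := hK f hf hfJ
    obtain ⟨hfu, h1⟩ := hfθ x hxJ₁
    have h2 : θ ⟨f x, hfu⟩ = θ ⟨x, hxT⟩ := by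
      congr 1
      exact Subtype.ext hfx
    rw [h2] at h1
    calc m * θ ⟨x, hxT⟩ = (m * θ ⟨x, hxT⟩ * m⁻¹) * m := by group
      _ = θ ⟨x, hxT⟩ * m := by rw [← h1]
  have hwc := pth_power_weakly_closed W hW2 hW1 hWZ hq θ.range hθp hidx (θ ⟨x, hxT⟩) hxcl hxN'
  -- contradiction with the automorphism moving `x`
  obtain ⟨α, hα, hαf⟩ := hf₀.exists_aut hf₀P
  obtain ⟨m, hm⟩ := haut α hα
  have h1 := hm ⟨x, hxP₀⟩
  have h2 := hwc m (by rw [← h1]; exact ⟨_, rfl⟩)
  rw [h2] at h1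
  have h3 := congrArg Subtype.val (hθinj h1)
  apply hf₀x
  rw [← hαf ⟨x, hxP₀⟩]
  exact h3

end

end Cfsg.Agent.Lib.Helper88
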