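import Mathlib

set_option autoImplicit false

namespace Cfsg.Agent.Lib.Helper88

/-- An endomorphism of odd order that is trivial on `H` and on `K` modulo `H` is trivial on `K`. -/
theorem stab_trivial {G : Type*} [AddCommGroup G] (b : G →+ G) (m N : ℕ) (hm : Odd m)
    (hbm : ∀ x, b^[m] x = x) (hN : ∀ x : G, 2 ^ N • x = 0) (H K : Set G)
    (hH : ∀ x ∈ H, b x = x) (hK : ∀ x ∈ K, b x - x ∈ H) : ∀ x ∈ K, b x = x := by
  intro x hx
  have hbd : b (b x - x) = b x - x := hH _ (hK x hx)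
  have hiter : ∀ j : ℕ, b^[j] x = x + j • (b x - x) := by
    intro j
    induction j with
    | zero => simp
    | succ j ih =>
      rw [Function.iterate_succ_apply', ih, map_add, map_nsmul, hbd, succ_nsmul]
      abel
  have h1 : m • (b x - x) = 0 := by
    have h := hiter m
    rw [hbm] at h
    have h' : x + 0 = x + m • (b x - x) := by rw [add_zero]; exact h
    exact (add_left_cancel h').symm
  have h2 : 2 ^ N • (b x - x) = 0 := hN _
  have h3 : (Nat.gcd m (2 ^ N)) • (b x - x) = 0 := gcd_nsmul_eq_zero.mpr ⟨h1, h2⟩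
  have hg : Nat.gcd m (2 ^ N) = 1 := Nat.Coprime.pow_right N (Nat.coprime_two_right.mpr hm)
  rw [hg, one_nsmul] at h3
  exact sub_eq_zero.mp h3

theorem zmod_two_pow_kill (a l : ℕ) (h : a ≤ l) (z : ZMod (2 ^ a)) : 2 ^ l • z = 0 := by
  rw [nsmul_eq_mul]
  have : ((2 ^ l : ℕ) : ZMod (2 ^ a)) = 0 :=
    (ZMod.natCast_eq_zero_iff _ _).mpr (pow_dvd_pow 2 h)
  rw [this, zero_mul]

theorem zmod_two_torsion (a : ℕ) (ha : 1 ≤ a) (z : ZMod (2 ^ a)) (h2 : 2 • z = 0) (hz : z ≠ 0) :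
    z = ((2 ^ (a - 1) : ℕ) : ZMod (2 ^ a)) := by
  have : NeZero (2 ^ a) := ⟨by positivity⟩
  have hv : ((z.val : ℕ) : ZMod (2 ^ a)) = z := ZMod.natCast_zmod_val z
  have hlt : z.val < 2 ^ a := ZMod.val_lt z
  have hne : z.val ≠ 0 := fun h => hz ((ZMod.val_eq_zero z).mp h)
  have hdvd : 2 ^ a ∣ 2 * z.val := by
    rw [← ZMod.natCast_eq_zero_iff]
    rw [nsmul_eq_mul] at h2
    push_cast
    rw [hv]
    exact_mod_cast h2
  have hpow : 2 ^ a = 2 * 2 ^ (a - 1) := by
    rw [← pow_succ']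
    congr 1
    omega
  have hdvd2 : 2 * 2 ^ (a - 1) ∣ 2 * z.val := by rw [← hpow]; exact hdvd
  have hlt2 : z.val < 2 * 2 ^ (a - 1) := by rw [← hpow]; exact hlt
  have hdvd' : 2 ^ (a - 1) ∣ z.val := Nat.dvd_of_mul_dvd_mul_left (by norm_num) hdvd2
  obtain ⟨c, hc⟩ := hdvd'
  have hc1 : c = 1 := by
    have hpos : 0 < 2 ^ (a - 1) := by positivity
    rcases c with _ | _ | c
    · simp at hc; exact absurd hc hz
    · rfl
    · exfalso
      rw [hc] at hlt2
      nlinarith
  rw [← hv, hc, hc1, mul_one]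

section coords

variable {n : ℕ} (a : Fin n → ℕ)

/-- Elements of order at most two whose nonzero coordinates sit in factors of exponent `> l`. -/
def Wset (l : ℕ) : Set ((i : Fin n) → ZMod (2 ^ a i)) :=
  {x | 2 • x = 0 ∧ ∀ i, x i ≠ 0 → l < a i}

theorem wset_div (ha1 : ∀ i, 1 ≤ a i) (l : ℕ) (x : (i : Fin n) → ZMod (2 ^ a i))
    (hx : x ∈ Wset a l) : ∃ y : (i : Fin n) → ZMod (2 ^ a i), x = 2 ^ l • y := by
  classical
  refine ⟨fun i => if x i = 0 then 0 else ((2 ^ (a i - 1 - l) : ℕ) : ZMod (2 ^ a i)), ?_⟩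
  funext i
  rw [Pi.smul_apply]
  by_cases hxi : x i = 0
  · simp [hxi]
  · have h2 : 2 • x i = 0 := by
      have := congrFun hx.1 i
      simpa using this
    have hl := hx.2 i hxi
    rw [if_neg hxi, zmod_two_torsion (a i) (ha1 i) (x i) h2 hxi, nsmul_eq_mul, ← Nat.cast_mul,
      ← pow_add]
    congr 2
    omega

theorem wset_of_div (l : ℕ) (x y : (i : Fin n) → ZMod (2 ^ a i)) (h2 : 2 • x = 0)
    (hxy : x = 2 ^ l • y) : x ∈ Wset a l := by
  refine ⟨h2, ?_⟩
  intro i hxi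
  by_contra hl
  apply hxi
  rw [hxy, Pi.smul_apply]
  exact zmod_two_pow_kill (a i) l (not_lt.mp hl) (y i)

theorem wset_sub (ha : StrictMono a) (ha1 : ∀ i, 1 ≤ a i) (l : ℕ)
    (x x' : (i : Fin n) → ZMod (2 ^ a i)) (hx : x ∈ Wset a l) (hx' : x' ∈ Wset a l)
    (hx1 : x ∉ Wset a (l + 1)) (hx1' : x' ∉ Wset a (l + 1)) : x' - x ∈ Wset a (l + 1) := by
  have key : ∀ z : (i : Fin n) → ZMod (2 ^ a i), z ∈ Wset a l → z ∉ Wset a (l + 1) →
      ∃ i, a i = l + 1 ∧ z i = ((2 ^ (a i - 1) : ℕ) : ZMod (2 ^ a i)) := by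
    intro z hz hz1
    have : ¬ ∀ i, z i ≠ 0 → l + 1 < a i := fun h => hz1 ⟨hz.1, h⟩
    push Not at this
    obtain ⟨i, hzi, hi⟩ := this
    have hl := hz.2 i hzi
    refine ⟨i, by omega, ?_⟩
    have h2 : 2 • z i = 0 := by
      have := congrFun hz.1 i
      simpa using this
    exact zmod_two_torsion (a i) (ha1 i) (z i) h2 hzi
  obtain ⟨i, hi, hxi⟩ := key x hx hx1
  obtain ⟨j, hj, hxj⟩ := key x' hx' hx1'
  have hij : i = j := ha.injective (hi.trans hj.symm)
  subst hij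
  refine ⟨?_, ?_⟩
  · rw [smul_sub, hx.1, hx'.1, sub_zero]
  · intro k hk
    have hki : k ≠ i := by
      rintro rfl
      apply hk
      rw [Pi.sub_apply, hxi, hxj, sub_self]
    have hak : a k ≠ l + 1 := fun h => hki (ha.injective (h.trans hi.symm))
    have hlk : l < a k := by
      by_cases hxk : x k = 0
      · apply hx'.2 k
        intro h'
        apply hk
        rw [Pi.sub_apply, hxk, h', sub_zero]
      · exact hx.2 k hxk
    omega

theorem wset_top (L : ℕ) (hL : ∀ i, a i ≤ L) (x : (i : Fin n) → ZMod (2 ^ a i))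
    (hx : x ∈ Wset a L) : x = 0 := by
  funext i
  by_contra h
  have := hx.2 i h
  have := hL i
  omega

theorem wset_zero (ha1 : ∀ i, 1 ≤ a i) (x : (i : Fin n) → ZMod (2 ^ a i)) (h2 : 2 • x = 0) :
    x ∈ Wset a 0 := ⟨h2, fun i _ => ha1 i⟩

theorem zero_mem_wset (l : ℕ) : (0 : (i : Fin n) → ZMod (2 ^ a i)) ∈ Wset a l :=
  ⟨by simp, fun i h => absurd rfl h⟩

/-- An additive endomorphism of odd order of a product of cyclic 2-groups of pairwise distinct
orders is the identity. -/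
theorem odd_aut_trivial (ha : StrictMono a) (ha1 : ∀ i, 1 ≤ a i)
    (b : ((i : Fin n) → ZMod (2 ^ a i)) →+ ((i : Fin n) → ZMod (2 ^ a i))) (m : ℕ) (hm : Odd m)
    (hbm : ∀ x, b^[m] x = x) : ∀ x, b x = x := by
  obtain ⟨N, hN⟩ : ∃ N, ∀ i, a i ≤ N :=
    ⟨Finset.univ.sup a, fun i => Finset.le_sup (Finset.mem_univ i)⟩
  have hkill : ∀ x : (i : Fin n) → ZMod (2 ^ a i), 2 ^ N • x = 0 := by
    intro x
    funext i
    rw [Pi.smul_apply]
    exact zmod_two_pow_kill (a i) N (hN i) (x i)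
  have hinj : Function.Injective b := by
    intro x y hxy
    obtain ⟨k, rfl⟩ : ∃ k, m = k + 1 := by
      obtain ⟨k, hk⟩ := hm
      exact ⟨2 * k, hk⟩
    have h1 := hbm x
    have h2 := hbm y
    rw [Function.iterate_succ_apply] at h1 h2
    rw [← h1, ← h2, hxy]
  have hWinv : ∀ l x, x ∈ Wset a l → b x ∈ Wset a l := by
    intro l x hx
    obtain ⟨y, hy⟩ := wset_div a ha1 l x hx
    apply wset_of_div a l (b x) (b y)
    · rw [← map_nsmul, hx.1, map_zero]
    · rw [hy, map_nsmul]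
  have claim1 : ∀ k l, l + k = N → ∀ x ∈ Wset a l, b x = x := by
    intro k
    induction k with
    | zero =>
      intro l hl x hx
      have h0 := wset_top a l (fun i => by have := hN i; omega) x hx
      rw [h0, map_zero]
    | succ k ih =>
      intro l hl
      have ih' := ih (l + 1) (by omega)
      apply stab_trivial b m N hm hbm hkill (Wset a (l + 1)) (Wset a l) ih'
      intro x hx
      by_cases hx1 : x ∈ Wset a (l + 1)
      · rw [ih' x hx1, sub_self]; exact zero_mem_wset a (l + 1)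
      · have hbx1 : b x ∉ Wset a (l + 1) := by
          intro h
          have h5 := hinj (ih' (b x) h)
          rw [h5] at h; exact hx1 h
        exact wset_sub a ha ha1 l x (b x) hx (hWinv l x hx) hx1 hbx1
  have claimW0 : ∀ x ∈ Wset a 0, b x = x := claim1 N 0 (by omega)
  have claim2 : ∀ k, ∀ x : (i : Fin n) → ZMod (2 ^ a i), 2 ^ (k + 1) • x = 0 → b x = x := by
    intro k
    induction k with
    | zero =>
      intro x hx
      exact claimW0 x (wset_zero a ha1 x (by simpa using hx))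
    | succ k ih =>
      apply stab_trivial b m N hm hbm hkill {x | 2 ^ (k + 1) • x = 0} {x | 2 ^ (k + 1 + 1) • x = 0} ih
      intro x hx
      show 2 ^ (k + 1) • (b x - x) = 0
      have h6 : (2 : ℕ) • (2 ^ (k + 1) • x) = 0 := by
        rw [← mul_nsmul', ← pow_succ']
        exact hx
      rw [smul_sub, ← map_nsmul, claimW0 _ (wset_zero a ha1 _ h6), sub_self]
  intro x
  apply claim2 N x
  rw [pow_succ, mul_nsmul, hkill, nsmul_zero]

end coords

end Cfsg.Agent.Lib.Helper88
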