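import Mathlib
import Cfsg.Agent.Lib.Helper88.SmallAut

/-!
Group version of `small_of_minimal`: a minimal subgroup invariant under a group of automorphisms
on which some member of a conjugation-closed family of `p'`-automorphisms acts nontrivially
has only small elements.
-/

set_option autoImplicit false

namespace Cfsg.Agent.Lib.Helper88

open Cfsg

theorem small_of_minimal_grp {Γ : Type*} [Group Γ] {p : ℕ} [Fact p.Prime]
    (A : Subgroup (MulAut Γ)) (T : Set (MulAut Γ)) (hTA : T ⊆ A)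
    (hTc : ∀ t ∈ T, ∀ g ∈ A, g * t * g⁻¹ ∈ T)
    (hTo : ∀ t ∈ T, ∃ m : ℕ, m.Coprime p ∧ t ^ m = 1)
    (Q : Subgroup Γ) [Finite Q] (hQ : IsPGroup p Q)
    (hinv : ∀ g ∈ A, ∀ x ∈ Q, g x ∈ Q) (hnt : ∃ t ∈ T, ∃ x ∈ Q, t x ≠ x)
    (hmin : ∀ Q' : Subgroup Γ, Q' ≤ Q → Q' ≠ Q → (∀ g ∈ A, ∀ x ∈ Q', g x ∈ Q') →
      ∀ t ∈ T, ∀ x ∈ Q', t x = x) :
    (∀ x ∈ Q, Small p x) ∧ Q = Subgroup.closure {y | ∃ t ∈ T, ∃ x ∈ Q, y = x⁻¹ * t x} := by
  have hp : p.Prime := Fact.out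
  have hpel : ∀ c ∈ Q, ∃ k : ℕ, c ^ p ^ k = 1 := by
    intro c hc
    obtain ⟨k, hk⟩ := hQ ⟨c, hc⟩
    exact ⟨k, by simpa using congrArg Subtype.val hk⟩
  set D := Subgroup.closure {y | ∃ t ∈ T, ∃ x ∈ Q, y = x⁻¹ * t x} with hD
  have hDQ : D ≤ Q := (Subgroup.closure_le _).2 (by
    rintro _ ⟨t, ht, x, hx, rfl⟩
    exact Q.mul_mem (Q.inv_mem hx) (hinv t (hTA ht) x hx))
  have hDinv : ∀ g ∈ A, ∀ y ∈ D, g y ∈ D := by
    intro g hg y hy
    have : D ≤ D.comap g.toMonoidHom := (Subgroup.closure_le _).2 (by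
      rintro _ ⟨t, ht, x, hx, rfl⟩
      show g (x⁻¹ * t x) ∈ D
      rw [map_mul, map_inv]
      refine Subgroup.subset_closure ⟨g * t * g⁻¹, hTc t ht g hg, g x, hinv g hg x hx, ?_⟩
      simp [MulAut.mul_apply])
    exact this hy
  have hDeq : D = Q := by
    by_contra hne
    obtain ⟨t, ht, x, hx, hax⟩ := hnt
    apply hax
    have hfix := hmin D hDQ hne hDinv t ht
    have hc : x⁻¹ * t x ∈ D := Subgroup.subset_closure ⟨t, ht, x, hx, rfl⟩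
    obtain ⟨k, hk⟩ := hpel _ (hDQ hc)
    obtain ⟨m, hm, ham⟩ := hTo t ht
    have := eq_one_of_coprime_fix t hm ham (x := x) (c := x⁻¹ * t x) (by group) (hfix _ hc) hk
    exact (inv_mul_eq_one.1 this).symm
  have hcentral : ∀ M : Subgroup Γ, M ≤ Q → M ≠ Q → (∀ g ∈ A, ∀ x ∈ M, g x ∈ M) →
      (∀ q ∈ Q, ∀ z ∈ M, q * z * q⁻¹ ∈ M) → ∀ z ∈ M, ∀ q ∈ Q, q * z = z * q := by
    intro M hMQ hMne hMinv hMn z hz
    have hfix := hmin M hMQ hMne hMinv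
    have hle : D ≤ Subgroup.centralizer {z} := (Subgroup.closure_le _).2 (by
      rintro _ ⟨t, ht, x, hx, rfl⟩
      rw [SetLike.mem_coe, Subgroup.mem_centralizer_iff]
      intro h hh
      rw [Set.mem_singleton_iff] at hh
      subst hh
      have h1 : t (x * h * x⁻¹) = x * h * x⁻¹ := hfix t ht _ (hMn x hx h hz)
      rw [map_mul, map_mul, map_inv, hfix t ht h hz] at h1
      calc h * (x⁻¹ * t x) = x⁻¹ * (x * h * x⁻¹) * t x := by group
        _ = x⁻¹ * (t x * h * (t x)⁻¹) * t x := by rw [h1]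
        _ = x⁻¹ * t x * h := by group)
    intro q hq
    have hq' : q ∈ D := by rw [hDeq]; exact hq
    exact (Subgroup.mem_centralizer_iff.1 (hle hq') z rfl).symm
  set M := Subgroup.closure ({y | ∃ x ∈ Q, y = x ^ p} ∪
    {y | ∃ x ∈ Q, ∃ w ∈ Q, y = x * w * x⁻¹ * w⁻¹}) with hM
  have hMQ : M ≤ Q := (Subgroup.closure_le _).2 (by
    rintro _ (⟨x, hx, rfl⟩ | ⟨x, hx, w, hw, rfl⟩)
    · exact Q.pow_mem hx p
    · exact Q.mul_mem (Q.mul_mem (Q.mul_mem hx hw) (Q.inv_mem hx)) (Q.inv_mem hw))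
  have hMinv : ∀ g ∈ A, ∀ x ∈ M, g x ∈ M := by
    intro g hg y hy
    have : M ≤ M.comap g.toMonoidHom := (Subgroup.closure_le _).2 (by
      rintro _ (⟨x, hx, rfl⟩ | ⟨x, hx, w, hw, rfl⟩)
      · show g (x ^ p) ∈ M
        rw [map_pow]
        exact Subgroup.subset_closure (Or.inl ⟨g x, hinv g hg x hx, rfl⟩)
      · show g (x * w * x⁻¹ * w⁻¹) ∈ M
        rw [map_mul, map_mul, map_mul, map_inv, map_inv]
        exact Subgroup.subset_closure
          (Or.inr ⟨g x, hinv g hg x hx, g w, hinv g hg w hw, rfl⟩))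
    exact this hy
  have hMn : ∀ q ∈ Q, ∀ z ∈ M, q * z * q⁻¹ ∈ M := by
    intro q hq z hz
    have : M ≤ M.comap (MulAut.conj q).toMonoidHom := (Subgroup.closure_le _).2 (by
      rintro _ (⟨x, hx, rfl⟩ | ⟨x, hx, w, hw, rfl⟩)
      · show q * x ^ p * q⁻¹ ∈ M
        rw [← conj_pow]
        exact Subgroup.subset_closure
          (Or.inl ⟨q * x * q⁻¹, Q.mul_mem (Q.mul_mem hq hx) (Q.inv_mem hq), rfl⟩)
      · show q * (x * w * x⁻¹ * w⁻¹) * q⁻¹ ∈ M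
        have e : q * (x * w * x⁻¹ * w⁻¹) * q⁻¹ =
            (q * x * q⁻¹) * (q * w * q⁻¹) * (q * x * q⁻¹)⁻¹ * (q * w * q⁻¹)⁻¹ := by group
        rw [e]
        exact Subgroup.subset_closure
          (Or.inr ⟨q * x * q⁻¹, Q.mul_mem (Q.mul_mem hq hx) (Q.inv_mem hq),
            q * w * q⁻¹, Q.mul_mem (Q.mul_mem hq hw) (Q.inv_mem hq), rfl⟩))
    exact this hz
  have hMne : M ≠ Q := by
    intro hMQeq
    have hle : M ≤ (frattini ↥Q).map Q.subtype := (Subgroup.closure_le _).2 (by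
      rintro _ (⟨x, hx, rfl⟩ | ⟨x, hx, w, hw, rfl⟩)
      · exact ⟨(⟨x, hx⟩ : Q) ^ p, Helper87.pow_p_mem_frattini hQ _, rfl⟩
      · exact ⟨(⟨x, hx⟩ : Q) * ⟨w, hw⟩ * (⟨x, hx⟩ : Q)⁻¹ * (⟨w, hw⟩ : Q)⁻¹,
          Helper87.comm_mem_frattini hQ _ _, rfl⟩)
    have htop : frattini ↥Q = ⊤ := by
      rw [eq_top_iff]
      intro y _
      have hy : (y : Γ) ∈ M := by rw [hMQeq]; exact y.2
      obtain ⟨z, hz, hzy⟩ := hle hy
      have : z = y := Subtype.ext hzy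
      rw [← this]
      exact hz
    rcases eq_top_or_exists_le_coatom (⊥ : Subgroup Q) with h | ⟨K, hK, -⟩
    · obtain ⟨t, ht, x, hx, hax⟩ := hnt
      apply hax
      have h1 : (⟨x, hx⟩ : Q) ∈ (⊥ : Subgroup Q) := by rw [h]; exact Subgroup.mem_top _
      rw [Subgroup.mem_bot] at h1
      have h2 : x = 1 := congrArg Subtype.val h1
      rw [h2, map_one]
    · have := frattini_le_coatom hK
      rw [htop] at this
      exact hK.1 (top_le_iff.1 this)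
  have hMc := hcentral M hMQ hMne hMinv hMn
  have hMfix := hmin M hMQ hMne hMinv
  obtain ⟨n, hn1, hn2, hn3⟩ : ∃ n : ℕ, p ∣ n.choose 2 ∧ (∀ x ∈ Q, x ^ n ∈ M) ∧
      (∀ x : Γ, x ^ n = 1 → Small p x) := by
    by_cases h2 : p = 2
    · refine ⟨4, ?_, ?_, ?_⟩
      · rw [h2]; decide
      · intro x hx
        have e : x ^ 4 = (x ^ p) ^ 2 := by rw [h2, ← pow_mul]
        rw [e]
        exact M.pow_mem (Subgroup.subset_closure (Or.inl ⟨x, hx, rfl⟩)) 2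
      · intro x hx
        exact Or.inr ⟨h2, hx⟩
    · refine ⟨p, ?_, ?_, ?_⟩
      · exact hp.dvd_choose_self (by norm_num) (lt_of_le_of_ne hp.two_le (Ne.symm h2))
      · intro x hx
        exact Subgroup.subset_closure (Or.inl ⟨x, hx, rfl⟩)
      · intro x hx
        exact Or.inl hx
  have hmul : ∀ x ∈ Q, ∀ w ∈ Q, (x * w) ^ n = x ^ n * w ^ n := by
    intro x hx w hw
    set c := w * x * w⁻¹ * x⁻¹ with hc
    have hcM : c ∈ M := Subgroup.subset_closure (Or.inr ⟨w, hw, x, hx, rfl⟩)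
    have hcx : Commute c x := (hMc c hcM x hx).symm
    have hcw : Commute c w := (hMc c hcM w hw).symm
    have h1 : w * x = c * x * w := by rw [hc]; group
    have hcp : c ^ p = 1 := by
      have h2 := pow_comm_central x w c h1 hcw p
      have h3 : w ^ p * x = x * w ^ p :=
        (hMc (w ^ p) (Subgroup.subset_closure (Or.inl ⟨w, hw, rfl⟩)) x hx).symm
      rw [h3] at h2
      have : c ^ p * (x * w ^ p) = 1 * (x * w ^ p) := by rw [one_mul, ← mul_assoc]; exact h2.symm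
      exact mul_right_cancel this
    rw [mul_pow_central x w c h1 hcx hcw n]
    obtain ⟨j, hj⟩ := hn1
    rw [hj, pow_mul, hcp, one_pow, mul_one]
  have hker : ∀ y ∈ Q, y ^ n = 1 := by
    let Kn : Subgroup Γ :=
      { carrier := {y | y ∈ Q ∧ y ^ n = 1}
        mul_mem' := by
          rintro x w ⟨hx, hxn⟩ ⟨hw, hwn⟩
          exact ⟨Q.mul_mem hx hw, by rw [hmul x hx w hw, hxn, hwn, one_mul]⟩
        one_mem' := ⟨Q.one_mem, one_pow n⟩
        inv_mem' := by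
          rintro x ⟨hx, hxn⟩
          exact ⟨Q.inv_mem hx, by rw [inv_pow, hxn, inv_one]⟩ }
    have hDK : D ≤ Kn := (Subgroup.closure_le _).2 (by
      rintro _ ⟨t, ht, x, hx, rfl⟩
      have htx : t x ∈ Q := hinv t (hTA ht) x hx
      refine ⟨Q.mul_mem (Q.inv_mem hx) htx, ?_⟩
      rw [hmul _ (Q.inv_mem hx) _ htx, inv_pow, ← map_pow, hMfix t ht _ (hn2 x hx),
        inv_mul_cancel])
    intro y hy
    have hyD : y ∈ D := by rw [hDeq]; exact hy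
    exact (hDK hyD).2
  exact ⟨fun x hx => hn3 x (hker x hx), hDeq.symm⟩

theorem exists_small_invariant_grp {Γ : Type*} [Group Γ] {p : ℕ} [Fact p.Prime]
    (A : Subgroup (MulAut Γ)) (T : Set (MulAut Γ)) (hTA : T ⊆ A)
    (hTc : ∀ t ∈ T, ∀ g ∈ A, g * t * g⁻¹ ∈ T)
    (hTo : ∀ t ∈ T, ∃ m : ℕ, m.Coprime p ∧ t ^ m = 1) :
    ∀ (n : ℕ) (Q : Subgroup Γ), Finite Q → Nat.card Q = n → IsPGroup p Q →
    (∀ g ∈ A, ∀ x ∈ Q, g x ∈ Q) → (∃ t ∈ T, ∃ x ∈ Q, t x ≠ x) →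
    ∃ P₁ : Subgroup Γ, P₁ ≤ Q ∧ (∀ g ∈ A, ∀ x ∈ P₁, g x ∈ P₁) ∧ (∃ t ∈ T, ∃ x ∈ P₁, t x ≠ x) ∧
      (∀ x ∈ P₁, Small p x) ∧
      P₁ = Subgroup.closure {y | ∃ t ∈ T, ∃ x ∈ P₁, y = x⁻¹ * t x} := by
  intro n
  induction n using Nat.strong_induction_on with
  | _ n ih =>
    intro Q hfin hcard hQ hinv hnt
    by_cases hex : ∃ Q' : Subgroup Γ, Q' ≤ Q ∧ Q' ≠ Q ∧ (∀ g ∈ A, ∀ x ∈ Q', g x ∈ Q') ∧
        ∃ t ∈ T, ∃ x ∈ Q', t x ≠ x
    · obtain ⟨Q', hle, hne, hinv', hnt'⟩ := hex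
      have hfin' : Finite Q' := Finite.of_injective _ (Subgroup.inclusion_injective hle)
      have hlt : Nat.card Q' < n := by
        rw [← hcard]
        exact lt_of_not_ge (fun hge => hne (Subgroup.eq_of_le_of_card_ge hle hge))
      obtain ⟨P₁, h1, h2, h3, h4, h5⟩ := ih _ hlt Q' hfin' rfl (hQ.to_le hle) hinv' hnt'
      exact ⟨P₁, h1.trans hle, h2, h3, h4, h5⟩
    · have hmin : ∀ Q' : Subgroup Γ, Q' ≤ Q → Q' ≠ Q → (∀ g ∈ A, ∀ x ∈ Q', g x ∈ Q') →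
          ∀ t ∈ T, ∀ x ∈ Q', t x = x := by
        intro Q' h1 h2 h3 t ht x hx
        by_contra hax
        exact hex ⟨Q', h1, h2, h3, t, ht, x, hx, hax⟩
      have hsm := small_of_minimal_grp A T hTA hTc hTo Q hQ hinv hnt hmin
      exact ⟨Q, le_rfl, hinv, hnt, hsm.1, hsm.2⟩

end Cfsg.Agent.Lib.Helper88
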