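import Mathlib

set_option autoImplicit false

namespace Cfsg.Agent.Lib.Helper88

theorem aut_mem_center {G : Type*} [Group G] (α : MulAut G) {z : G}
    (hz : z ∈ Subgroup.center G) : α z ∈ Subgroup.center G := by
  rw [Subgroup.mem_center_iff] at hz ⊢
  intro g
  have h := hz (α⁻¹ g)
  have h2 := congrArg α h
  rw [map_mul, map_mul] at h2
  simpa using h2

/-- Restriction of an automorphism to the centre. -/
def centerAut (G : Type*) [Group G] : MulAut G →* MulAut (Subgroup.center G) where
  toFun α :=
    { toFun := fun z => ⟨α z, aut_mem_center α z.2⟩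
      invFun := fun z => ⟨α⁻¹ z, aut_mem_center α⁻¹ z.2⟩
      left_inv := fun z => Subtype.ext (by simp)
      right_inv := fun z => Subtype.ext (by simp)
      map_mul' := fun x y => Subtype.ext (by simp) }
  map_one' := by ext z; rfl
  map_mul' := by intro α β; ext z; rfl

theorem centerAut_apply {G : Type*} [Group G] (α : MulAut G) (z : Subgroup.center G) :
    ((centerAut G α z : Subgroup.center G) : G) = α z := rfl

/-- Transfer argument: if `B ≤ A` has index prime to the order of the abelian group `V`, then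
`C_V(A)` has a complement in `C_V(B)`. -/
theorem trace_complement {V : Type*} [CommGroup V] [Finite V] {A : Type*} [Group A] [Finite A]
    (ρ : A →* MulAut V) (B : Subgroup A) (hcop : (B.index).Coprime (Nat.card V)) :
    ∃ K : Subgroup V, (∀ k ∈ K, ∀ b ∈ B, ρ b k = k) ∧
      (∀ v ∈ K, (∀ a : A, ρ a v = v) → v = 1) ∧
      (∀ v, (∀ b ∈ B, ρ b v = v) → ∃ c k, v = c * k ∧ (∀ a : A, ρ a c = c) ∧ k ∈ K) := by
  classical
  have : Fintype (A ⧸ B) := Fintype.ofFinite _
  let τ : V →* V := ∏ c : A ⧸ B, (ρ c.out).toMonoidHom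
  have hτ : ∀ v, τ v = ∏ c : A ⧸ B, ρ c.out v := by
    intro v
    simp [τ]
  have hinv : ∀ v, (∀ b ∈ B, ρ b v = v) → ∀ a : A, ρ a (τ v) = τ v := by
    intro v hv a
    rw [hτ, map_prod]
    have hstep : ∀ c : A ⧸ B, ρ a (ρ c.out v) = ρ (a • c).out v := by
      intro c
      have hmem : ((a • c).out)⁻¹ * (a * c.out) ∈ B := by
        rw [← QuotientGroup.eq, QuotientGroup.out_eq']
        exact (MulAction.Quotient.mk_smul_out B a c).symm
      have h1 := hv _ hmem
      rw [map_mul, MulAut.mul_apply] at h1
      have h2 := congrArg (ρ (a • c).out) h1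
      rw [← MulAut.mul_apply, ← map_mul, mul_inv_cancel, map_one, MulAut.one_apply] at h2
      rw [← h2, map_mul, MulAut.mul_apply]
    rw [Finset.prod_congr rfl (fun c _ => hstep c)]
    exact Fintype.prod_equiv (MulAction.toPerm a) _ _ (fun c => rfl)
  have hfix : ∀ v, (∀ a : A, ρ a v = v) → τ v = v ^ B.index := by
    intro v hv
    rw [hτ, Finset.prod_congr rfl (fun c _ => hv c.out), Finset.prod_const, Finset.card_univ,
      Subgroup.index_eq_card, Nat.card_eq_fintype_card]
  let CB : Subgroup V :=
    { carrier := {v | ∀ b ∈ B, ρ b v = v}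
      mul_mem' := by
        intro x y hx hy b hb
        rw [map_mul, hx b hb, hy b hb]
      one_mem' := by
        intro b _
        exact map_one _
      inv_mem' := by
        intro x hx b hb
        rw [map_inv, hx b hb] }
  refine ⟨τ.ker ⊓ CB, ?_, ?_, ?_⟩
  · intro k hk b hb
    exact hk.2 b hb
  · intro v hv hfixv
    have h1 : v ^ B.index = 1 := by rw [← hfix v hfixv]; exact hv.1
    have h2 : v ^ Nat.card V = 1 := pow_card_eq_one'
    have h3 := pow_gcd_eq_one.mpr ⟨h1, h2⟩
    rw [Nat.Coprime] at hcop
    rw [hcop, pow_one] at h3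
    exact h3
  · intro v hv
    have hun : ((powCoprime hcop.symm).symm (τ v)) ^ B.index = τ v :=
      (powCoprime hcop.symm).apply_symm_apply (τ v)
    have hufix : ∀ a : A, ρ a ((powCoprime hcop.symm).symm (τ v)) =
        (powCoprime hcop.symm).symm (τ v) := by
      intro a
      apply (powCoprime hcop.symm).injective
      show (ρ a ((powCoprime hcop.symm).symm (τ v))) ^ B.index =
        ((powCoprime hcop.symm).symm (τ v)) ^ B.index
      rw [← map_pow, hun, hinv v hv a]
    refine ⟨(powCoprime hcop.symm).symm (τ v), ((powCoprime hcop.symm).symm (τ v))⁻¹ * v,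
      by rw [mul_inv_cancel_left], hufix, ?_, ?_⟩
    · show _ ∈ τ.ker
      rw [MonoidHom.mem_ker, map_mul, map_inv, hfix _ hufix, hun, inv_mul_cancel]
    · intro b hb
      rw [map_mul, map_inv, hufix b, hv b hb]

end Cfsg.Agent.Lib.Helper88
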